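import Cfsg.Agent.Lib.Law.SL2

set_option autoImplicit false

namespace Cfsg.Agent.Law

open Equiv
open scoped commutatorElement

theorem sign_viaEmbedding {α β : Type*} [Fintype α] [DecidableEq α] [Fintype β] [DecidableEq β]
    (e : Perm α) (ι : α ↪ β) : Perm.sign (e.viaEmbedding ι) = Perm.sign e := by
  classical
  unfold Perm.viaEmbedding
  convert Perm.sign_extendDomain e _

/-- A finite group `G` embeds in the alternating group on any set with at least `2|G|` points. -/
theorem exists_embedding_alternating (G : Type*) [Group G] [Finite G] (α : Type*) [Fintype α]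
    [DecidableEq α] (h : 2 * Nat.card G ≤ Fintype.card α) :
    ∃ φ : G →* alternatingGroup α, Function.Injective φ := by
  classical
  have := Fintype.ofFinite G
  obtain ⟨ι⟩ : Nonempty (G ⊕ G ↪ α) := by
    apply Function.Embedding.nonempty_of_card_le
    rw [Fintype.card_sum, ← Nat.card_eq_fintype_card]
    omega
  let ψ : G →* Perm α := (Perm.viaEmbeddingHom ι).comp ((Perm.sumCongrHom G G).comp
    ((MulAction.toPermHom G G).prod (MulAction.toPermHom G G)))
  refine ⟨ψ.codRestrict _ ?_, ?_⟩
  · intro g
    rw [Perm.mem_alternatingGroup]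
    simp only [ψ, MonoidHom.comp_apply, Perm.viaEmbeddingHom_apply, sign_viaEmbedding,
      Perm.sumCongrHom_apply, MonoidHom.prod_apply, Perm.sign_sumCongr]
    exact Int.units_mul_self _
  · intro a b hab
    have h1 : ψ a = ψ b := congrArg Subtype.val hab
    have h2 := Perm.sumCongrHom_injective (Perm.viaEmbeddingHom_injective ι h1)
    exact MulAction.toPerm_injective (congrArg Prod.fst h2)

theorem exists_bound_alt (w : FreeGroup ℕ) (hw : w ≠ 1) :
    ∃ N : ℕ, ∀ (α : Type*) [Fintype α] [DecidableEq α],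
      IsLaw w (alternatingGroup α) → Fintype.card α < N := by
  obtain ⟨Q, hQ⟩ := exists_bound_SL2 w hw
  obtain ⟨p, hp, hpp⟩ := Nat.exists_infinite_primes (Q + 1)
  have : Fact p.Prime := ⟨hpp⟩
  refine ⟨2 * Nat.card (Matrix.SpecialLinearGroup (Fin 2) (ZMod p)), ?_⟩
  intro α _ _ hlaw
  by_contra hlt
  obtain ⟨φ, hφ⟩ := exists_embedding_alternating (Matrix.SpecialLinearGroup (Fin 2) (ZMod p)) α
    (not_lt.mp hlt)
  have := hQ (ZMod p) (hlaw.of_injective φ hφ)
  rw [Nat.card_zmod] at this
  omega

theorem exists_alt_not_law (w : FreeGroup ℕ) (hw : w ≠ 1) :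
    ∃ n : ℕ, 5 ≤ n ∧ ¬ IsLaw w (alternatingGroup (Fin n)) := by
  obtain ⟨N, hN⟩ := exists_bound_alt.{0} w hw
  refine ⟨N + 5, by omega, fun h => ?_⟩
  have := hN _ h
  simp at this

/-- From a law of `H / Z(H)` to a law of `H`. -/
theorem exists_law_of_center (w : FreeGroup ℕ) (hw : w ≠ 1) :
    ∃ w' : FreeGroup ℕ, w' ≠ 1 ∧ ∀ (H : Type) [Group H],
      IsLaw w (H ⧸ Subgroup.center H) → IsLaw w' H := by
  have key : ∀ (H : Type) [Group H] (f : ℕ → H),
      FreeGroup.lift f ⁅FreeGroup.map Nat.succ w, FreeGroup.of 0⁆ =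
        ⁅FreeGroup.lift (fun i => f (i + 1)) w, f 0⁆ := by
    intro H _ f
    rw [map_commutatorElement, FreeGroup.lift_apply_of]
    congr 1
    exact FreeGroup.lift_unique ((FreeGroup.lift f).comp (FreeGroup.map Nat.succ)) (by simp)
  refine ⟨⁅FreeGroup.map Nat.succ w, FreeGroup.of 0⁆, ?_, ?_⟩
  · obtain ⟨n, hn, hlaw⟩ := exists_alt_not_law w hw
    unfold IsLaw at hlaw
    push Not at hlaw
    obtain ⟨f, hf⟩ := hlaw
    intro h
    apply hf
    have hc : FreeGroup.lift f w ∈ Subgroup.center (alternatingGroup (Fin n)) := by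
      rw [Subgroup.mem_center_iff]
      intro g
      have := key _ (fun i => Nat.casesOn (motive := fun _ => alternatingGroup (Fin n)) i g f)
      rw [h, map_one] at this
      exact (commutatorElement_eq_one_iff_mul_comm.mp this.symm).symm
    rwa [alternatingGroup.center_eq_bot (by simp; omega), Subgroup.mem_bot] at hc
  · intro H _ hlaw f
    rw [key, commutatorElement_eq_one_iff_mul_comm]
    have := hlaw (fun i => QuotientGroup.mk' _ (f (i + 1)))
    rw [lift_comp_hom, QuotientGroup.mk'_apply, QuotientGroup.eq_one_iff,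
      Subgroup.mem_center_iff] at this
    exact (this _).symm

/-- From a law of `[H, H]` to a law of `H`. -/
theorem exists_law_of_commutator (w : FreeGroup ℕ) (hw : w ≠ 1) :
    ∃ w' : FreeGroup ℕ, w' ≠ 1 ∧ ∀ (H : Type) [Group H],
      IsLaw w (commutator H) → IsLaw w' H := by
  obtain ⟨n, hn, hlaw⟩ := exists_alt_not_law w hw
  unfold IsLaw at hlaw
  push Not at hlaw
  obtain ⟨f, hf⟩ := hlaw
  obtain ⟨π, hπ⟩ := exists_surjective_nat (alternatingGroup (Fin n))
  have hsurj := FreeGroup.lift_surjective_of_surjective hπ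
  have hσ : ∀ i, ∃ u ∈ commutator (FreeGroup ℕ), FreeGroup.lift π u = f i := by
    intro i
    have h1 : (commutator (FreeGroup ℕ)).map (FreeGroup.lift π) = ⊤ := by
      rw [map_commutator_eq, MonoidHom.range_eq_top.mpr hsurj, ← commutator_def]
      exact commutator_alternatingGroup_eq_top (by simp; omega)
    have : f i ∈ (commutator (FreeGroup ℕ)).map (FreeGroup.lift π) := by rw [h1]; trivial
    exact this
  choose σ hσ1 hσ2 using hσ
  refine ⟨FreeGroup.lift σ w, ?_, ?_⟩
  · intro h
    apply hf
    have := lift_comp_hom (FreeGroup.lift π) σ w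
    simp only [hσ2] at this
    rw [h, map_one] at this
    exact this
  · intro H _ hlaw g
    have hm : ∀ i, FreeGroup.lift g (σ i) ∈ commutator H := by
      intro i
      have : (commutator (FreeGroup ℕ)).map (FreeGroup.lift g) ≤ commutator H := by
        rw [map_commutator_eq, commutator_def]
        exact Subgroup.commutator_mono le_top le_top
      exact this ⟨_, hσ1 i, rfl⟩
    rw [← lift_comp_hom]
    have := lift_comp_hom (commutator H).subtype (fun i => ⟨_, hm i⟩) w
    rw [hlaw, map_one] at this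
    exact this

theorem IsLaw.subgroup {w : FreeGroup ℕ} {G : Type*} [Group G] (h : IsLaw w G) (H : Subgroup G) :
    IsLaw w H := h.of_injective H.subtype H.subtype_injective

end Cfsg.Agent.Law
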