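import Cfsg.Agent.Lib.Law.Alt
import Cfsg.Prelude.Def_Classical

set_option autoImplicit false

namespace Cfsg.Agent.Law

open Matrix

theorem IsLaw.of_rep {w : FreeGroup ℕ} {K H M : Type*} [Group K] [Group H] [Monoid M]
    (ψ : K →* M) (ρ : H →* M) (hψ : Function.Injective ψ) (hr : ∀ k, ∃ h, ρ h = ψ k)
    (hlaw : IsLaw w H) : IsLaw w K := by
  intro f
  choose g hg using hr
  have h1 := lift_comp_hom ρ.toHomUnits (fun i => g (f i)) w
  have h2 := lift_comp_hom ψ.toHomUnits f w
  have h3 : (fun i => ρ.toHomUnits (g (f i))) = fun i => ψ.toHomUnits (f i) := by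
    funext i
    ext
    simp [hg]
  rw [h3, h2, hlaw, map_one] at h1
  apply hψ
  rw [map_one]
  simpa using congrArg Units.val h1

theorem card_le_of_rep {H ι F : Type*} [Group H] [Fintype ι] [DecidableEq ι] [Field F] [Finite F]
    (ρ : H →* Matrix ι ι F) (hρ : Function.Injective ρ) {M Q : ℕ} (hM : Fintype.card ι ≤ M)
    (hQ : Nat.card F ≤ Q) : Nat.card H ≤ Q ^ (M * M) := by
  have h1 : Nat.card H ≤ Nat.card (ι → ι → F) :=
    Nat.card_le_card_of_injective (β := ι → ι → F) ρ hρ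
  rw [Nat.card_fun, Nat.card_fun, ← pow_mul, Nat.card_eq_fintype_card (α := ι)] at h1
  refine h1.trans ?_
  have h0 : 0 < Nat.card F := Nat.card_pos
  calc Nat.card F ^ (Fintype.card ι * Fintype.card ι) ≤ Q ^ (Fintype.card ι * Fintype.card ι) :=
        Nat.pow_le_pow_left hQ _
    _ ≤ Q ^ (M * M) := Nat.pow_le_pow_right (by omega) (Nat.mul_le_mul hM hM)

section Blocks

variable {F : Type*} [Field F]

/-- `B ↦ diag(B, 1)`. -/
def blockL (κ μ : Type) [Fintype κ] [DecidableEq κ] [Fintype μ] [DecidableEq μ] :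
    Matrix κ κ F →* Matrix (κ ⊕ μ) (κ ⊕ μ) F where
  toFun B := fromBlocks B 0 0 1
  map_one' := fromBlocks_one
  map_mul' A B := by simp [fromBlocks_multiply]

/-- `B ↦ diag(1, B)`. -/
def blockR (μ κ : Type) [Fintype κ] [DecidableEq κ] [Fintype μ] [DecidableEq μ] :
    Matrix κ κ F →* Matrix (μ ⊕ κ) (μ ⊕ κ) F where
  toFun B := fromBlocks 1 0 0 B
  map_one' := fromBlocks_one
  map_mul' A B := by simp [fromBlocks_multiply]

/-- `A ↦ diag(A, A⁻ᵀ)`. -/
def hyp (κ : Type) [Fintype κ] [DecidableEq κ] :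
    SpecialLinearGroup κ F →* Matrix (κ ⊕ κ) (κ ⊕ κ) F where
  toFun A := fromBlocks (A : Matrix κ κ F) 0 0 ((A⁻¹ : SpecialLinearGroup κ F) : Matrix κ κ F)ᵀ
  map_one' := by simp [fromBlocks_one]
  map_mul' A B := by
    rw [_root_.mul_inv_rev, Matrix.SpecialLinearGroup.coe_mul, Matrix.SpecialLinearGroup.coe_mul, transpose_mul]
    simp [fromBlocks_multiply]

variable {κ μ : Type} [Fintype κ] [DecidableEq κ] [Fintype μ] [DecidableEq μ]

theorem blockL_apply (B : Matrix κ κ F) : blockL κ μ B = fromBlocks B 0 0 1 := rfl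
theorem blockR_apply (B : Matrix κ κ F) : blockR μ κ B = fromBlocks 1 0 0 B := rfl
theorem hyp_apply (A : SpecialLinearGroup κ F) : hyp κ A =
  fromBlocks (A : Matrix κ κ F) 0 0 ((A⁻¹ : SpecialLinearGroup κ F) : Matrix κ κ F)ᵀ := rfl

theorem blockL_injective : Function.Injective (blockL (F := F) κ μ) := by
  intro A B h
  exact (fromBlocks_inj.mp h).1

theorem blockR_injective : Function.Injective (blockR (F := F) μ κ) := by
  intro A B h
  exact (fromBlocks_inj.mp h).2.2.2

theorem hyp_injective : Function.Injective (hyp (F := F) κ) := by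
  intro A B h
  exact Subtype.ext (fromBlocks_inj.mp h).1

theorem hyp_dot (A : SpecialLinearGroup κ F) (v : κ ⊕ κ → F) :
    ∑ i, (hyp κ A *ᵥ v) (.inl i) * (hyp κ A *ᵥ v) (.inr i) = ∑ i, v (.inl i) * v (.inr i) := by
  rw [hyp_apply, fromBlocks_mulVec]
  simp only [zero_mulVec, add_zero, zero_add, Sum.elim_inl, Sum.elim_inr]
  change ((A : Matrix κ κ F) *ᵥ (v ∘ Sum.inl)) ⬝ᵥ
    (((A⁻¹ : SpecialLinearGroup κ F) : Matrix κ κ F)ᵀ *ᵥ (v ∘ Sum.inr)) =
      (v ∘ Sum.inl) ⬝ᵥ (v ∘ Sum.inr)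
  rw [dotProduct_mulVec, vecMul_transpose, mulVec_mulVec, ← Matrix.SpecialLinearGroup.coe_mul,
    inv_mul_cancel, Matrix.SpecialLinearGroup.coe_one, one_mulVec]

theorem coeSL_injective :
    Function.Injective (SpecialLinearGroup.coeMonoidHom : SpecialLinearGroup κ F →* _) :=
  fun _ _ h => Subtype.ext h

theorem permMatrixHom_injective :
    Function.Injective (permMatrixHom : Equiv.Perm κ →* Matrix κ κ F) := by
  rw [injective_iff_map_eq_one]
  intro σ h
  rw [← inv_eq_one]
  ext i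
  have := congrFun (congrFun h i) i
  by_contra hne
  simp [permMatrixHom_apply, Equiv.toPEquiv_apply] at this
  exact hne this

end Blocks

theorem exists_bound_SL (w : FreeGroup ℕ) (hw : w ≠ 1) :
    ∃ M Q : ℕ, (∀ (α : Type) [Fintype α] [DecidableEq α],
      IsLaw w (alternatingGroup α) → Fintype.card α ≤ M) ∧
      ∀ (F : Type) [Field F] [Finite F] (n : ℕ), 2 ≤ n →
      IsLaw w (SpecialLinearGroup (Fin n) F) → n ≤ M ∧ Nat.card F ≤ Q := by
  obtain ⟨M, hM⟩ := exists_bound_alt.{0} w hw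
  obtain ⟨Q, hQ⟩ := exists_bound_SL2 w hw
  refine ⟨M, Q, fun α _ _ h => (hM α h).le, ?_⟩
  intro F _ _ n hn hlaw
  constructor
  · have := hM (Fin n) (hlaw.of_rep
      ((permMatrixHom (R := F)).comp (alternatingGroup (Fin n)).subtype)
      SpecialLinearGroup.coeMonoidHom
      (permMatrixHom_injective.comp (Subgroup.subtype_injective _)) ?_)
    · simpa using this.le
    · intro k
      refine ⟨⟨permMatrixHom (k : Equiv.Perm (Fin n)), ?_⟩, rfl⟩
      rw [permMatrixHom_apply, det_permutation, Equiv.Perm.sign_inv,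
        Equiv.Perm.mem_alternatingGroup.mp k.2]
      simp
  · obtain ⟨m, rfl⟩ : ∃ m, n = 2 + m := ⟨n - 2, by omega⟩
    apply hQ F
    refine hlaw.of_rep ((reindexRingEquiv F finSumFinEquiv).toMonoidHom.comp
      ((blockL (Fin 2) (Fin m)).comp SpecialLinearGroup.coeMonoidHom))
      SpecialLinearGroup.coeMonoidHom
      ((reindexRingEquiv F finSumFinEquiv).injective.comp (blockL_injective.comp coeSL_injective))
      ?_
    intro k
    refine ⟨⟨reindex finSumFinEquiv finSumFinEquiv (fromBlocks (k : Matrix _ _ F) 0 0 1), ?_⟩, rfl⟩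
    rw [det_reindex_self, det_fromBlocks_zero₂₁]
    simp

theorem law_Sp {w : FreeGroup ℕ} {F : Type} [Field F] {m : ℕ}
    (h : IsLaw w (symplecticGroup (Fin m) F)) : IsLaw w (SpecialLinearGroup (Fin m) F) := by
  refine h.of_rep (hyp (Fin m)) (symplecticGroup (Fin m) F).subtype hyp_injective ?_
  intro A
  refine ⟨⟨hyp (Fin m) A, ?_⟩, rfl⟩
  rw [SymplecticGroup.mem_iff, hyp_apply, J, fromBlocks_transpose]
  have h1 : (A : Matrix (Fin m) (Fin m) F) *
    ((A⁻¹ : SpecialLinearGroup (Fin m) F) : Matrix (Fin m) (Fin m) F) = 1 := by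
    rw [← Matrix.SpecialLinearGroup.coe_mul, mul_inv_cancel, Matrix.SpecialLinearGroup.coe_one]
  have h2 : ((A⁻¹ : SpecialLinearGroup (Fin m) F) : Matrix (Fin m) (Fin m) F)ᵀ *
    (A : Matrix (Fin m) (Fin m) F)ᵀ = 1 := by
    rw [← transpose_mul, h1, transpose_one]
  simp only [fromBlocks_multiply, Matrix.mul_zero, Matrix.zero_mul, add_zero, zero_add,
    transpose_zero, transpose_transpose, Matrix.mul_neg, Matrix.mul_one, Matrix.neg_mul, h1, h2,
    neg_zero]

/-- The matrix representation of an isometry group. -/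
def isoRep {ι : Type} [Fintype ι] [DecidableEq ι] (F : Type) [Field F] (Q : (ι → F) → F) :
    isometryGroup F Q →* Matrix ι ι F :=
  (Units.coeHom (Matrix ι ι F)).comp (isometryGroup F Q).subtype

theorem isoRep_injective {ι : Type} [Fintype ι] [DecidableEq ι] (F : Type) [Field F]
    (Q : (ι → F) → F) : Function.Injective (isoRep F Q) :=
  Units.val_injective.comp (Subgroup.subtype_injective _)

theorem law_iso {w : FreeGroup ℕ} {ι : Type} [Fintype ι] [DecidableEq ι] {F : Type} [Field F]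
    (Q : (ι → F) → F) {K : Type} [Group K] (ψ : K →* Matrix ι ι F) (hψ : Function.Injective ψ)
    (hQ : ∀ k v, Q (ψ k *ᵥ v) = Q v) (h : IsLaw w (isometryGroup F Q)) : IsLaw w K := by
  refine h.of_rep ψ (isoRep F Q) hψ ?_
  intro k
  exact ⟨⟨ψ.toHomUnits k, fun u _ => hQ k u⟩, rfl⟩

theorem law_plus {w : FreeGroup ℕ} {F : Type} [Field F] {m : ℕ}
    (h : IsLaw w (isometryGroup F (quadFormPlus m F))) :
    IsLaw w (SpecialLinearGroup (Fin m) F) :=
  law_iso _ (hyp (Fin m)) hyp_injective (fun k v => hyp_dot k v) h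

theorem law_odd {w : FreeGroup ℕ} {F : Type} [Field F] {m : ℕ}
    (h : IsLaw w (isometryGroup F (quadFormOdd m F))) :
    IsLaw w (SpecialLinearGroup (Fin m) F) := by
  refine law_iso _ ((blockR Unit _).comp (hyp (Fin m))) (blockR_injective.comp hyp_injective) ?_ h
  intro k v
  simp only [quadFormOdd, MonoidHom.comp_apply, blockR_apply, fromBlocks_mulVec, zero_mulVec,
    add_zero, zero_add, Sum.elim_inl, Sum.elim_inr, one_mulVec, Function.comp_apply]
  rw [hyp_dot]
  rfl

theorem law_minus {w : FreeGroup ℕ} {F : Type} [Field F] {m : ℕ} {a b : F}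
    (h : IsLaw w (isometryGroup F (quadFormMinus m F a b))) :
    IsLaw w (SpecialLinearGroup (Fin m) F) := by
  refine law_iso _ ((blockL _ (Fin 2)).comp (hyp (Fin m))) (blockL_injective.comp hyp_injective)
    ?_ h
  intro k v
  simp only [quadFormMinus, MonoidHom.comp_apply, blockL_apply, fromBlocks_mulVec, zero_mulVec,
    add_zero, zero_add, Sum.elim_inl, Sum.elim_inr, one_mulVec, Function.comp_apply]
  rw [hyp_dot]
  rfl

end Cfsg.Agent.Law
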