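import Mathlib

set_option autoImplicit false

namespace Cfsg.Agent.Law

open Matrix Polynomial

/-- `w` is a law in `G`. -/
def IsLaw (w : FreeGroup ℕ) (G : Type*) [Group G] : Prop :=
  ∀ f : ℕ → G, FreeGroup.lift f w = 1

theorem lift_comp_hom {G H : Type*} [Group G] [Group H] (φ : G →* H) (f : ℕ → G)
    (w : FreeGroup ℕ) : FreeGroup.lift (fun i => φ (f i)) w = φ (FreeGroup.lift f w) := by
  symm
  exact FreeGroup.lift_unique (φ.comp (FreeGroup.lift f)) (by intro x; simp)

theorem IsLaw.of_injective {w : FreeGroup ℕ} {G H : Type*} [Group G] [Group H] (φ : G →* H)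
    (hφ : Function.Injective φ) (h : IsLaw w H) : IsLaw w G := by
  intro f
  apply hφ
  rw [← lift_comp_hom, h, map_one]

section SL2

variable {F : Type*} [Field F]

/-- The matrix with eigenvalue `t` on `(1,a)` and `t⁻¹` on `(1,b)`. -/
noncomputable def pp (a b t : F) : Matrix (Fin 2) (Fin 2) F :=
  !![(a - b)⁻¹ * (t⁻¹ * a - t * b), (a - b)⁻¹ * (t - t⁻¹);
     (a - b)⁻¹ * (a * b * (t⁻¹ - t)), (a - b)⁻¹ * (t * a - t⁻¹ * b)]

theorem pp_det {a b t : F} (hab : a ≠ b) (ht : t ≠ 0) : (pp a b t).det = 1 := by
  have h : a - b ≠ 0 := sub_ne_zero.mpr hab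
  rw [pp, det_fin_two_of]
  field_simp
  ring

theorem pp_mul {a b t : F} (hab : a ≠ b) (ht : t ≠ 0) : pp a b t * pp b a t = 1 := by
  have h : a - b ≠ 0 := sub_ne_zero.mpr hab
  have h' : b - a ≠ 0 := sub_ne_zero.mpr hab.symm
  ext i j
  fin_cases i <;> fin_cases j <;> simp [pp, Matrix.mul_apply, Fin.sum_univ_two] <;>
    field_simp <;> ring

/-- `pp` as an element of `SL₂`. -/
noncomputable def ppSL {a b t : F} (hab : a ≠ b) (ht : t ≠ 0) :
    Matrix.SpecialLinearGroup (Fin 2) F := ⟨pp a b t, pp_det hab ht⟩

theorem ppSL_inv {a b t : F} (hab : a ≠ b) (ht : t ≠ 0) :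
    (ppSL hab ht)⁻¹ = ppSL hab.symm ht := by
  rw [inv_eq_iff_mul_eq_one]
  exact Subtype.ext (pp_mul hab ht)

theorem pingpong (pt : ℕ × Bool → F) (c : F) (L : List (ℕ × Bool)) (hL : FreeGroup.IsReduced L)
    (h1 : ∀ x ∈ L, pt x ≠ pt (x.1, !x.2))
    (h2 : ∀ x ∈ L, ∀ y ∈ L, pt x = pt (y.1, !y.2) → x = (y.1, !y.2))
    (h3 : ∀ y ∈ L, c ≠ pt (y.1, !y.2)) :
    ∃ p q : F[X], p.natDegree ≤ 2 * L.length ∧ q.natDegree ≤ 2 * L.length ∧
      p.coeff (2 * L.length) ≠ 0 ∧
      q.coeff (2 * L.length) = p.coeff (2 * L.length) * (L.head?.map pt).getD c ∧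
      ∀ t : F, t ≠ 0 → (L.map (fun x => pp (pt x) (pt (x.1, !x.2)) t)).prod *ᵥ ![1, c] =
        (t ^ L.length)⁻¹ • ![p.eval t, q.eval t] := by
  induction L with
  | nil =>
    refine ⟨1, C c, by simp, by simp, by simp, by simp, ?_⟩
    intro t _
    simp
  | cons x L ih =>
    obtain ⟨p, q, hp, hq, hp0, hqp, hev⟩ := ih (hL.infix (List.infix_cons (List.infix_refl L)))
      (fun y hy => h1 y (List.mem_cons_of_mem _ hy))
      (fun y hy z hz => h2 y (List.mem_cons_of_mem _ hy) z (List.mem_cons_of_mem _ hz))
      (fun y hy => h3 y (List.mem_cons_of_mem _ hy))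
    set a := pt x with ha
    set b := pt (x.1, !x.2) with hb
    have hab : a - b ≠ 0 := sub_ne_zero.mpr (h1 x List.mem_cons_self)
    have hd : (L.head?.map pt).getD c ≠ b := by
      cases L with
      | nil => simpa using h3 x List.mem_cons_self
      | cons y L =>
        simp only [List.head?_cons, Option.map_some, Option.getD_some]
        intro h
        have := h2 y (by simp) x (by simp) h
        rw [FreeGroup.isReduced_cons_cons] at hL
        have h5 := hL.1 (by rw [this])
        rw [this] at h5
        simp at h5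
    set r : F[X] := C (a - b)⁻¹ * (q - C b * p) with hr
    set s : F[X] := C (a - b)⁻¹ * (C a * p - q) with hs
    have hrd : r.natDegree ≤ 2 * L.length := by
      refine (natDegree_C_mul_le _ _).trans ((natDegree_sub_le _ _).trans (max_le hq ?_))
      exact (natDegree_C_mul_le _ _).trans hp
    have hsd : s.natDegree ≤ 2 * L.length := by
      refine (natDegree_C_mul_le _ _).trans ((natDegree_sub_le _ _).trans (max_le ?_ hq))
      exact (natDegree_C_mul_le _ _).trans hp
    have hlen : 2 * (x :: L).length = 2 * L.length + 2 := by simp; ring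
    have hs0 : s.coeff (2 * L.length + 2) = 0 := coeff_eq_zero_of_natDegree_lt (by omega)
    have hX : ∀ u : F[X], u.natDegree ≤ 2 * L.length →
        (X ^ 2 * u).natDegree ≤ 2 * L.length + 2 := by
      intro u hu
      refine natDegree_mul_le.trans ?_
      have := natDegree_X_pow_le (R := F) 2
      omega
    refine ⟨X ^ 2 * r + s, X ^ 2 * (C a * r) + C b * s, ?_, ?_, ?_, ?_, ?_⟩
    · rw [hlen]
      exact (natDegree_add_le _ _).trans (max_le (hX r hrd) (by omega))
    · rw [hlen]
      refine (natDegree_add_le _ _).trans (max_le (hX _ ((natDegree_C_mul_le _ _).trans hrd)) ?_)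
      exact (natDegree_C_mul_le _ _).trans (by omega)
    · rw [hlen, coeff_add, coeff_X_pow_mul, hs0, add_zero, hr, coeff_C_mul, coeff_sub,
        coeff_C_mul, hqp]
      refine mul_ne_zero (inv_ne_zero hab) ?_
      have : p.coeff (2 * L.length) * (L.head?.map pt).getD c - b * p.coeff (2 * L.length)
          = p.coeff (2 * L.length) * ((L.head?.map pt).getD c - b) := by ring
      rw [this]
      exact mul_ne_zero hp0 (sub_ne_zero.mpr hd)
    · rw [hlen, coeff_add, coeff_add, coeff_X_pow_mul, coeff_X_pow_mul, coeff_C_mul (p := s), hs0,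
        coeff_C_mul]
      simp [← ha, mul_comm]
    · intro t ht
      rw [List.map_cons, List.prod_cons, ← Matrix.mulVec_mulVec, hev t ht]
      ext i
      fin_cases i <;>
        simp [pp, ← ha, ← hb, hr, hs, Matrix.mulVec, dotProduct, Fin.sum_univ_two, pow_succ] <;>
        field_simp <;> ring

/-- A nontrivial word is not a law in `SL₂(F)` for a large enough finite field `F`. -/
theorem exists_bound_SL2 (w : FreeGroup ℕ) (hw : w ≠ 1) :
    ∃ Q : ℕ, ∀ (F : Type) [Field F] [Finite F],
      IsLaw w (Matrix.SpecialLinearGroup (Fin 2) F) → Nat.card F ≤ Q := by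
  classical
  set L := w.toWord with hLdef
  have hL : FreeGroup.IsReduced L := FreeGroup.isReduced_toWord
  have hLne : L ≠ [] := by rw [hLdef]; simpa using hw
  refine ⟨2 * L.length + 1, ?_⟩
  intro F _ _ hlaw
  by_contra hlt
  push Not at hlt
  have := Fintype.ofFinite F
  -- the points
  let S : Finset (Option (ℕ × Bool)) :=
    insert none ((L.toFinset.image some) ∪ (L.toFinset.image (fun x => some (x.1, !x.2))))
  have hS : S.card ≤ 2 * L.length + 1 := by
    refine (Finset.card_insert_le _ _).trans (Nat.succ_le_succ ?_)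
    refine (Finset.card_union_le _ _).trans ?_
    have h1 := (Finset.card_image_le (s := L.toFinset) (f := some)).trans (List.toFinset_card_le L)
    have h2 := (Finset.card_image_le (s := L.toFinset)
      (f := fun x : ℕ × Bool => some (x.1, !x.2))).trans (List.toFinset_card_le L)
    omega
  obtain ⟨g, -, hg⟩ := (S.finite_toSet).exists_injOn_of_encard_le (t := (Set.univ : Set F)) (by
    rw [Set.encard_coe_eq_coe_finsetCard, Set.encard_univ, ENat.card_eq_coe_natCard]
    exact_mod_cast (by omega))
  let pt : ℕ × Bool → F := fun x => g (some x)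
  let c : F := g none
  have hm1 : ∀ x ∈ L, some x ∈ (S : Set _) := by
    intro x hx; simp [S, hx]
  have hm2 : ∀ x ∈ L, some (x.1, !x.2) ∈ (S : Set _) := by
    intro x hx
    simp only [S, Finset.coe_insert, Finset.coe_union, Finset.coe_image, Set.mem_insert_iff,
      Set.mem_union, Set.mem_image]
    exact Or.inr (Or.inr ⟨x, by simpa using hx, rfl⟩)
  have h1 : ∀ x ∈ L, pt x ≠ pt (x.1, !x.2) := by
    intro x hx h
    have := hg (hm1 x hx) (hm2 x hx) h
    rcases x with ⟨i, b⟩
    simp at this
  obtain ⟨p, q, hp, -, hp0, -, hev⟩ := pingpong pt c L hL h1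
    (fun x hx y hy h => by simpa using hg (hm1 x hx) (hm2 y hy) h)
    (fun y hy h => by simpa using hg (by simp [S]) (hm2 y hy) h)
  -- for each nonzero `t`, `p(t) = t ^ len`
  have key : ∀ t : F, t ≠ 0 → (p - X ^ L.length).eval t = 0 := by
    intro t ht
    let f : ℕ → Matrix.SpecialLinearGroup (Fin 2) F := fun i =>
      if h : pt (i, true) ≠ pt (i, false) then ppSL h ht else 1
    have hf := hlaw f
    rw [← FreeGroup.mk_toWord (x := w), ← hLdef, FreeGroup.lift_mk] at hf
    have hf' := congrArg (Matrix.SpecialLinearGroup.coeMonoidHom : _ →* Matrix (Fin 2) (Fin 2) F) hf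
    rw [map_list_prod, map_one, List.map_map] at hf'
    have hmap : L.map (⇑(Matrix.SpecialLinearGroup.coeMonoidHom :
        _ →* Matrix (Fin 2) (Fin 2) F) ∘ fun x => bif x.2 then f x.1 else (f x.1)⁻¹)
        = L.map (fun x => pp (pt x) (pt (x.1, !x.2)) t) := by
      apply List.map_congr_left
      rintro ⟨i, b⟩ hx
      have hne := h1 _ hx
      cases b with
      | true =>
        have hne' : pt (i, true) ≠ pt (i, false) := hne
        simp only [Function.comp, cond_true, f, dif_pos hne']
        rfl
      | false =>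
        have hne' : pt (i, true) ≠ pt (i, false) := fun h => hne h.symm
        simp only [Function.comp, cond_false, f, dif_pos hne', ppSL_inv]
        rfl
    rw [hmap] at hf'
    have h := congrFun (hev t ht) 0
    rw [hf'] at h
    simp at h
    have ht' : t ^ L.length ≠ 0 := pow_ne_zero _ ht
    field_simp at h
    simp [h]
  have hlen : 0 < L.length := List.length_pos_iff.mpr hLne
  have hne : p - X ^ L.length ≠ 0 := by
    intro h
    have := congrArg (fun u => Polynomial.coeff u (2 * L.length)) h
    simp only [coeff_sub, coeff_X_pow, coeff_zero] at this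
    rw [if_neg (by omega)] at this
    exact hp0 (by simpa using this)
  have hdeg : (p - X ^ L.length).natDegree ≤ 2 * L.length := by
    refine (natDegree_sub_le _ _).trans (max_le hp ?_)
    exact (natDegree_X_pow_le _).trans (by omega)
  have hsub : (Finset.univ.erase (0 : F)).val ⊆ (p - X ^ L.length).roots := by
    intro t ht
    rw [mem_roots hne]
    exact key t (Finset.ne_of_mem_erase ht)
  have := (Polynomial.card_le_degree_of_subset_roots hsub).trans hdeg
  rw [Finset.card_erase_of_mem (Finset.mem_univ _), Finset.card_univ,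
    ← Nat.card_eq_fintype_card] at this
  omega

end SL2

end Cfsg.Agent.Law
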