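import Cfsg.Agent.Lib.Law.Classical

set_option autoImplicit false

namespace Cfsg.Agent.Law

open Matrix

theorem exists_frob {F : Type} [Field F] [Fintype F] {q : ℕ} (hq : Fintype.card F = q ^ 2) :
    ∃ φ : F →+* F, (∀ x, φ x = x ^ q) ∧ (∀ x, φ (φ x) = x) ∧ (Even q → (1 : F) = -1) := by
  obtain ⟨p, hp, e, hpp, he⟩ := FiniteField.card' F
  have : Fact p.Prime := ⟨hpp⟩
  have hdvd : q ∣ p ^ (e : ℕ) := by rw [← he, hq]; exact dvd_pow_self q (by norm_num)
  obtain ⟨k, -, hk⟩ := (Nat.dvd_prime_pow hpp).mp hdvd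
  refine ⟨iterateFrobenius F p k, fun x => by rw [iterateFrobenius_def, hk], ?_, ?_⟩
  · intro x
    rw [iterateFrobenius_def, iterateFrobenius_def, ← hk, ← pow_mul, ← sq, ← hq]
    exact FiniteField.pow_card x
  · intro hev
    have h2 : 2 ∣ p := Nat.prime_two.dvd_of_dvd_pow (hk ▸ hev.two_dvd)
    have hp2 : p = 2 := ((Nat.prime_dvd_prime_iff_eq Nat.prime_two hpp).mp h2).symm
    subst hp2
    exact (CharTwo.neg_eq 1).symm

theorem unitary_setup {F : Type} [Field F] [Fintype F] {q : ℕ} (hq : Fintype.card F = q ^ 2) :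
    ∃ (φ : F →+* F) (K : Subfield F) (P : Matrix (Fin 2) (Fin 2) F) (δ : F),
      (∀ x, φ x = x ^ q) ∧ q ≤ Nat.card K + 1 ∧ (∀ x ∈ K, φ x = x) ∧ P.det ≠ 0 ∧
      ∀ u v : Fin 2 → F, hermForm 2 F q (P *ᵥ u) (P *ᵥ v) =
        δ * (u 0 * φ (v 1) - u 1 * φ (v 0)) := by
  classical
  obtain ⟨φ, hφ, hφφ, hev⟩ := exists_frob hq
  have hq2 : 2 ≤ q := by
    have := Fintype.one_lt_card (α := F)
    rw [hq] at this
    by_contra h
    have h' : q = 0 ∨ q = 1 := by omega
    rcases h' with rfl | rfl <;> simp at this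
  obtain ⟨r, rfl⟩ : ∃ r, q = r + 1 := ⟨q - 1, by omega⟩
  obtain ⟨g, hg⟩ := IsCyclic.exists_ofOrder_eq_natCard (α := Fˣ)
  have hN : orderOf (g : F) = r * (r + 2) := by
    rw [orderOf_units, hg, Nat.card_units, Nat.card_eq_fintype_card, hq]
    have : (r + 1) ^ 2 = r * (r + 2) + 1 := by ring
    omega
  set ζ : F := (g : F) with hζ
  have hζ0 : ζ ≠ 0 := g.ne_zero
  have hr : 0 < r := by omega
  have hη : ζ ^ r ≠ 1 := by
    apply pow_ne_one_of_lt_orderOf hr.ne'
    rw [hN]; nlinarith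
  have hη1 : (ζ ^ r) ^ (r + 2) = 1 := by rw [← pow_mul, ← hN, pow_orderOf_eq_one]
  obtain ⟨α, hα⟩ : ∃ α : F, α ^ (r + 2) = -1 := by
    rcases Nat.even_or_odd (r + 1) with h | h
    · exact ⟨1, by rw [one_pow]; exact hev h⟩
    · obtain ⟨s, hs⟩ := h
      have hrs : r = 2 * s := by omega
      refine ⟨ζ ^ s, ?_⟩
      have h1 : ((ζ ^ s) ^ (r + 2)) ^ 2 = 1 := by
        rw [← hη1, ← pow_mul, ← pow_mul, ← pow_mul]; congr 1; rw [hrs]; ring
      have h2 : (ζ ^ s) ^ (r + 2) ≠ 1 := by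
        rw [← pow_mul]
        apply pow_ne_one_of_lt_orderOf
        · have : 0 < s := by omega
          positivity
        · rw [hN]; nlinarith
      rcases sq_eq_one_iff.mp h1 with h | h
      · exact absurd h h2
      · exact h
  have hα0 : α ≠ 0 := by
    rintro rfl
    simp at hα
  set β := ζ ^ r * α with hβdef
  have hβ : β ^ (r + 2) = -1 := by rw [hβdef, mul_pow, hη1, one_mul, hα]
  have hαβ : β - α ≠ 0 := by
    intro h
    apply hη
    have : (ζ ^ r - 1) * α = 0 := by rw [← h, hβdef]; ring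
    exact sub_eq_zero.mp ((mul_eq_zero.mp this).resolve_right hα0)
  have ha : 1 + α * φ α = 0 := by rw [hφ, ← pow_succ', hα]; ring
  have hb : 1 + β * φ β = 0 := by rw [hφ, ← pow_succ', hβ]; ring
  set δ := φ ζ - ζ with hδ
  have hδ0 : δ ≠ 0 := by
    intro h
    apply hη
    have : (ζ ^ r - 1) * ζ = 0 := by rw [← h, hδ, hφ]; ring
    exact sub_eq_zero.mp ((mul_eq_zero.mp this).resolve_right hζ0)
  have hδφ : φ δ = -δ := by rw [hδ, map_sub, hφφ]; ring
  have hμ : 1 + α * φ β ≠ 0 := by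
    intro h
    have h1 : (β - α) * φ β = 0 := by linear_combination hb - h
    rcases mul_eq_zero.mp h1 with h2 | h2
    · exact hαβ h2
    · rw [h2] at hb; simp at hb
  set l := φ (δ / (1 + α * φ β)) with hl
  have hl1 : φ l * (1 + α * φ β) = δ := by rw [hl, hφφ]; field_simp
  have hl2 : l * (1 + φ α * β) = -δ := by
    have := congrArg φ hl1
    rw [map_mul, map_add, map_mul, map_one, hφφ, hφφ, hδφ] at this
    exact this
  have hl0 : l ≠ 0 := by
    intro h
    rw [h, zero_mul] at hl2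
    exact hδ0 (neg_eq_zero.mp hl2.symm)
  refine ⟨φ, φ.eqLocusField (RingHom.id F), !![1, l; α, l * β], δ, hφ, ?_, fun x hx => hx, ?_, ?_⟩
  · have hmem : ∀ i : ℕ, (ζ ^ (r + 2)) ^ i ∈ φ.eqLocusField (RingHom.id F) := by
      intro i
      apply Subfield.pow_mem
      change φ (ζ ^ (r + 2)) = ζ ^ (r + 2)
      rw [hφ, pow_succ (ζ ^ (r + 2)), ← pow_mul, mul_comm (r + 2) r, ← hN, pow_orderOf_eq_one,
        one_mul]
    have hord : orderOf (ζ ^ (r + 2)) = r := by
      rw [orderOf_pow' _ (by omega), hN, Nat.gcd_eq_right (Dvd.intro_left _ rfl),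
        Nat.mul_div_cancel _ (by omega)]
    have := Nat.card_le_card_of_injective
      (fun i : Fin r => (⟨_, hmem i⟩ : φ.eqLocusField (RingHom.id F))) (by
        intro i j hij
        have h := congrArg Subtype.val hij
        apply Fin.ext
        exact pow_injOn_Iio_orderOf (x := ζ ^ (r + 2)) (by simp [hord]) (by simp [hord]) h)
    simpa using this
  · rw [det_fin_two_of]
    have : 1 * (l * β) - l * α = l * (β - α) := by ring
    rw [this]
    exact mul_ne_zero hl0 hαβ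
  · intro u v
    simp only [hermForm, ← hφ, Fin.sum_univ_two, mulVec, dotProduct, of_apply, cons_val',
      cons_val_zero, cons_val_one, cons_val_fin_one, map_add, map_mul, map_one]
    linear_combination (u 0 * φ (v 0)) * ha + (u 0 * φ (v 1)) * hl1 + (u 1 * φ (v 0)) * hl2
      + (u 1 * φ (v 1) * l * φ l) * hb

/-- The matrix representation of `SU`. -/
def suRep (n : ℕ) (F : Type) [Field F] (q : ℕ) : SU n F q →* Matrix (Fin n) (Fin n) F :=
  Matrix.SpecialLinearGroup.coeMonoidHom.comp (SU n F q).subtype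

theorem suRep_injective (n : ℕ) (F : Type) [Field F] (q : ℕ) :
    Function.Injective (suRep n F q) :=
  coeSL_injective.comp (Subgroup.subtype_injective _)

theorem law_SU_alt {w : FreeGroup ℕ} {F : Type} [Field F] {n q : ℕ}
    (h : IsLaw w (SU n F q)) : IsLaw w (alternatingGroup (Fin n)) := by
  refine h.of_rep ((permMatrixHom (R := F)).comp (alternatingGroup (Fin n)).subtype)
    (suRep n F q) (permMatrixHom_injective.comp (Subgroup.subtype_injective _)) ?_
  intro k
  refine ⟨⟨⟨permMatrixHom (k : Equiv.Perm (Fin n)), ?_⟩, ?_⟩, rfl⟩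
  · rw [permMatrixHom_apply, det_permutation, Equiv.Perm.sign_inv,
      Equiv.Perm.mem_alternatingGroup.mp k.2]
    simp
  · intro u v
    change hermForm n F q (permMatrixHom (k : Equiv.Perm (Fin n)) *ᵥ u)
      (permMatrixHom (k : Equiv.Perm (Fin n)) *ᵥ v) = _
    rw [permMatrixHom_apply, permMatrix_mulVec, permMatrix_mulVec]
    exact Equiv.sum_comp (k : Equiv.Perm (Fin n))⁻¹ (fun i => u i * v i ^ q)

theorem law_SU_SL2 {w : FreeGroup ℕ} {F : Type} [Field F] [Fintype F] {n q : ℕ}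
    (hq : Fintype.card F = q ^ 2) (hn : 2 ≤ n) (h : IsLaw w (SU n F q)) :
    ∃ K : Subfield F, q ≤ Nat.card K + 1 ∧ IsLaw w (Matrix.SpecialLinearGroup (Fin 2) K) := by
  obtain ⟨φ, K, P, δ, hφ, hK, hKφ, hP, hform⟩ := unitary_setup hq
  refine ⟨K, hK, ?_⟩
  obtain ⟨m, rfl⟩ : ∃ m, n = 2 + m := ⟨n - 2, by omega⟩
  have hPu : IsUnit P.det := hP.isUnit
  let c : Matrix (Fin 2) (Fin 2) F →* Matrix (Fin 2) (Fin 2) F :=
    { toFun := fun A => P * A * P⁻¹
      map_one' := by rw [Matrix.mul_one, mul_nonsing_inv _ hPu]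
      map_mul' := fun A B => by
        simp only [Matrix.mul_assoc, nonsing_inv_mul_cancel_left _ _ hPu] }
  have hc : Function.Injective c := by
    intro A B hAB
    have : P⁻¹ * (P * A * P⁻¹) * P = P⁻¹ * (P * B * P⁻¹) * P := congrArg (P⁻¹ * · * P) hAB
    simpa only [Matrix.mul_assoc, nonsing_inv_mul_cancel_left _ _ hPu, nonsing_inv_mul _ hPu,
      Matrix.mul_one] using this
  let j : Matrix (Fin 2) (Fin 2) K →* Matrix (Fin 2) (Fin 2) F := K.subtype.mapMatrix.toMonoidHom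
  have hj : Function.Injective j := by
    intro A B hAB
    ext a b
    exact congrFun (congrFun hAB a) b
  refine h.of_rep ((reindexRingEquiv F finSumFinEquiv).toMonoidHom.comp
      ((blockL (Fin 2) (Fin m)).comp (c.comp (j.comp Matrix.SpecialLinearGroup.coeMonoidHom))))
      (suRep _ F q)
      ((reindexRingEquiv F finSumFinEquiv).injective.comp (blockL_injective.comp
        (hc.comp (hj.comp coeSL_injective)))) ?_
  intro k
  have hdet : (j k).det = 1 := by
    have := K.subtype.map_det (k : Matrix (Fin 2) (Fin 2) K)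
    rw [k.2, map_one] at this
    exact this.symm
  have h2 : ∀ u v, hermForm 2 F q (c (j k) *ᵥ u) (c (j k) *ᵥ v) = hermForm 2 F q u v := by
    intro u v
    have hu : ∀ u : Fin 2 → F, u = P *ᵥ (P⁻¹ *ᵥ u) := by
      intro u; rw [mulVec_mulVec, mul_nonsing_inv _ hPu, one_mulVec]
    have hcu : ∀ u : Fin 2 → F, c (j k) *ᵥ u = P *ᵥ (j k *ᵥ (P⁻¹ *ᵥ u)) := by
      intro u; rw [mulVec_mulVec, mulVec_mulVec]; rfl
    rw [hcu, hcu, hform]
    conv_rhs => rw [hu u, hu v, hform]
    generalize P⁻¹ *ᵥ u = x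
    generalize P⁻¹ *ᵥ v = y
    have he : ∀ a b, φ (j k a b) = j k a b := fun a b => hKφ _ (k.1 a b).2
    rw [det_fin_two] at hdet
    simp only [mulVec, dotProduct, Fin.sum_univ_two, map_add, map_mul, he]
    linear_combination (δ * (x 0 * φ (y 1) - x 1 * φ (y 0))) * hdet
  refine ⟨⟨⟨reindex finSumFinEquiv finSumFinEquiv (fromBlocks (c (j k)) 0 0 1), ?_⟩, ?_⟩, rfl⟩
  · rw [det_reindex_self, det_fromBlocks_zero₂₁, det_one, mul_one]
    change (P * j k * P⁻¹).det = 1
    rw [det_mul, det_mul, hdet, mul_one, ← det_mul, mul_nonsing_inv _ hPu, det_one]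
  · intro u v
    change hermForm _ F q (reindex finSumFinEquiv finSumFinEquiv (fromBlocks (c (j k)) 0 0 1) *ᵥ u)
      (reindex finSumFinEquiv finSumFinEquiv (fromBlocks (c (j k)) 0 0 1) *ᵥ v) = _
    have := h2 (u ∘ finSumFinEquiv ∘ Sum.inl) (v ∘ finSumFinEquiv ∘ Sum.inl)
    simp only [hermForm] at this ⊢
    rw [← Equiv.sum_comp finSumFinEquiv, ← Equiv.sum_comp finSumFinEquiv (fun i => u i * v i ^ q),
      Fintype.sum_sum_type, Fintype.sum_sum_type]
    simp only [reindex_apply, submatrix_mulVec_equiv, Function.comp_apply, Equiv.symm_apply_apply,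
      Equiv.symm_symm, fromBlocks_mulVec, zero_mulVec, add_zero, zero_add, Sum.elim_inl,
      Sum.elim_inr, one_mulVec]
    congr 1

end Cfsg.Agent.Law
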